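import Mathlib
import Cfsg.Agent.F22X.Setup

/-!
The case of a centre of order eight.
-/

set_option autoImplicit false

namespace Cfsg.Agent.F22X

open Cfsg.Agent.Spor Cfsg.Agent.Spor.TT Cfsg.Agent.LX Subgroup QuadraticMap Module

variable {G Γ Γ' : Type*} [Group G] [Group Γ] [Group Γ'] {z a b c g g' t u y y' ζ : G} {F : G → Γ}
  {zb : Γ} {W W' : Subgroup G} {π : Γ → V4} {act : Γ → V4 → V4}

theorem exists_sing {V : Type*} [AddCommGroup V] [Module (ZMod 2) V] [Finite V]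
    (q : QuadraticForm (ZMod 2) V) {U : Submodule (ZMod 2) V} (h : 4 < Nat.card U) :
    ∃ v ∈ U, v ≠ 0 ∧ q v = 0 := by
  by_contra! k
  have k1 : ∀ v ∈ U, v ≠ 0 → q v = 1 := fun v hv n => (LX.z2_cases _).resolve_left (k v hv n)
  have k2 : ∀ u ∈ U, ∀ v ∈ U, u ≠ 0 → v ≠ 0 → u ≠ v → polar q u v = 1 := fun u hu v hv h1 h2 h3 => by
    have := k1 _ (add_mem hu hv) (mt v2_add_eq_zero.1 h3)
    rwa [q_add, k1 u hu h1, k1 v hv h2, CharTwo.add_self_eq_zero, zero_add] at this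
  have k3 : ∀ u v w : V, ∃ x ∈ U, x ≠ 0 ∧ x ≠ u ∧ x ≠ v ∧ x ≠ w := fun u v w => by
    by_contra! n
    have : (U : Set V).ncard ≤ 4 := (Set.ncard_le_ncard (t := {0, u, v, w}) fun x hx => by
      simp only [Set.mem_insert_iff, Set.mem_singleton_iff]
      have := n x hx
      tauto).trans (Set.ncard_insert_le _ _ |>.trans (Nat.succ_le_succ (Set.ncard_insert_le _ _ |>.trans
        (Nat.succ_le_succ ((Set.ncard_insert_le _ _).trans (by simp))))))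
    exact h.not_ge this
  obtain ⟨u, u1, u2, -⟩ := k3 0 0 0
  obtain ⟨v, v1, v2, v3, -⟩ := k3 u 0 0
  obtain ⟨w, w1, w2, w3, w4, w5⟩ := k3 u v (u + v)
  have := k2 u u1 _ (add_mem v1 w1) u2 (mt v2_add_eq_zero.1 w4.symm) fun e =>
    w5 (by rw [e, add_comm v w, add_assoc, LX.v2_add_self, add_zero])
  rw [polar_add_right, k2 u u1 v v1 u2 v2 v3.symm, k2 u u1 w w1 u2 w2 w3.symm] at this
  exact absurd this (by decide)

/-- A fixed point free element of order three centralising `C(Z) / J` excludes the reducible case. -/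
theorem Sec.not_hr [Finite Γ] (h : Sec z F zb) (hc : Commute z c) (c3 : c * c * c = 1)
    (fp : ∀ x ∈ QQ z, TT.cj c x * x⁻¹ ∈ ZZ z → x ∈ ZZ z)
    (k : ∀ g ∈ CZ z, g⁻¹ * TT.cj c⁻¹ g ∈ QQ z) : ¬ HR zb := by
  rintro ⟨Y, _, hR⟩
  obtain ⟨V, _, _, q, π, act, co⟩ := h.big.exists_co
  have := co.finite
  obtain ⟨y, hy, rfl⟩ := h.liftQ (hR.le hR.y_mem)
  have m : ∀ {x}, x ∈ QQ z → TT.cj c x ∈ QQ z := QQ_norm hc
  have n3 : ∀ x ∈ QQ z, x * TT.cj c x * TT.cj c (TT.cj c x) ∈ ZZ z := fun x hx =>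
    fp _ (mul_mem (mul_mem hx (m hx)) (m (m hx))) (by
      have e : TT.cj c (x * TT.cj c x * TT.cj c (TT.cj c x)) =
          TT.cj x⁻¹ (x * TT.cj c x * TT.cj c (TT.cj c x)) := by
        rw [cj_mul, cj_mul, cj_cj, cj_cj, ← mul_assoc c, c3, cj_one, cj_def (g := x⁻¹)]; group
      rcases h.s0.comm _ (inv_mem hx) _ (mul_mem (mul_mem hx (m hx)) (m (m hx))) with e' | e' <;>
        rw [e, e']
      exacts [by rw [mul_inv_cancel]; exact one_mem _, by rw [mul_inv_cancel_right]; exact z_mem_ZZ z])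
  have hy' := QQ_norm hc.inv_right hy
  obtain ⟨v, v1, v2, v3⟩ := exists_sing q
    (U := pp q (Submodule.span (ZMod 2) {π (F y), π (F (TT.cj c⁻¹ y))})) (by
      have k1 := co.finrank_pp (Submodule.span (ZMod 2) {π (F y), π (F (TT.cj c⁻¹ y))})
      have k2 : finrank (ZMod 2) (Submodule.span (ZMod 2) {π (F y), π (F (TT.cj c⁻¹ y))}) ≤ 2 := by
        classical
        exact (finrank_span_le_card _).trans (by rw [Set.toFinset_insert]; exact Finset.card_insert_le _ _ |>.trans (by simp))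
      rw [LX.card_eq_pow]
      exact lt_of_lt_of_le (by decide : 4 < 2 ^ 6) (Nat.pow_le_pow_right (by decide) (by omega)))
  obtain ⟨x, hx, rfl⟩ := h.qsurj co v
  have pc : ∀ x ∈ QQ z, ∀ y ∈ QQ z, polar q (π (F x)) (π (F y)) = 0 ↔ Commute x y := fun x hx y hy =>
    (co.comm _ (h.fq hx) _ (h.fq hy)).symm.trans (h.comm_iff hx hy)
  have xx := (h.sq_iff hx).1 ((co.sq _ (h.fq hx)).2 v3)
  have xZ : x ∉ ZZ z := fun e => v2 ((co.ker _ (h.fq hx)).2 ((h.ker x (QQ_le_CZ hx)).2 e))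
  have c1 := (pc y hy x hx).1 (mem_pp.1 v1 _ (Submodule.subset_span (Or.inl rfl)))
  have c2 := commute_cj_left.1 ((pc _ hy' x hx).1 (mem_pp.1 v1 _ (Submodule.subset_span (Or.inr rfl))))
  rw [inv_inv] at c2
  have xx' : TT.cj c x * TT.cj c x = 1 := by rw [← cj_mul, xx, cj_one_right]
  have c3' : Commute x (TT.cj c x) := by
    have e1 := h.s0.el _ (n3 x hx)
    have e2 : TT.cj c (TT.cj c x) * TT.cj c (TT.cj c x) = 1 := by rw [← cj_mul, xx', cj_one_right]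
    have e3 : Commute (TT.cj c (TT.cj c x)) (x * TT.cj c x) := by
      simpa only [mul_inv_cancel_right] using
        (mem_ZZ.1 (n3 x hx) _ (m (m hx))).mul_right (Commute.refl _).inv_right
    rw [e3.mul_mul_mul_comm, e2, mul_one] at e1
    rw [← inv_eq_iff_mul_eq_one, mul_inv_rev, inv_eq_of_mul_eq_one_right xx,
      inv_eq_of_mul_eq_one_right xx'] at e1
    exact e1.symm
  obtain ⟨sb, s1, s2, s3⟩ := hR.five _ (h.fq hx)
  obtain ⟨s, s4, s5, rfl⟩ := h.lift5 s2 (s1 ▸ pow_orderOf_eq_one sb)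
  have f1 : act (F s) (π (F x)) = π (F x) := co.act_of_comm s2 (h.fq hx) s3.symm
  have f2 : act (F s) (π (F (TT.cj c x))) = π (F (TT.cj c x)) := by
    have e : TT.cj s (TT.cj c x) = TT.cj c (TT.cj s (TT.cj (s⁻¹ * TT.cj c⁻¹ s) x)) := by
      simp only [cj_def]; group
    have r := (h.qfix co s4 hx).1 f1
    rw [h.qfix co s4 (m hx), e, ← cj_inv, ← cj_mul]
    refine ZZ_norm hc ?_
    rcases h.s0.comm _ (k s s4) x hx with e | e <;> rw [e]
    exacts [r, by rw [cj_mul, cj_of_commute (comm_CZ s4).symm, mul_assoc]; exact mul_mem (z_mem_ZZ z) r]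
  have f3 := co.y_fix hR s2
  have q2 := h.qsq co (m hx) xx'
  have q3 : q (π (F y)) = 1 := (co.sq' (h.fq hy)).1 hR.y_sq
  have p1 := (pc _ hx _ (m hx)).2 c3'
  have p2 := (pc _ hy _ hx).2 c1
  have p3 := (pc _ hy _ (m hx)).2 c2
  have ne : π (F x) ≠ π (F (TT.cj c x)) := fun e => xZ (fp x hx ((h.eqv_iff (QQ_le_CZ (m hx))
    (QQ_le_CZ hx)).1 ((co.eq_iff (h.fq (m hx)) (h.fq hx)).1 e.symm)))
  have v2' : π (F (TT.cj c x)) ≠ 0 := fun e => xZ (by
    simpa only [cj_inv_cj] using ZZ_norm hc.inv_right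
      ((h.ker _ (QQ_le_CZ (m hx))).1 ((co.ker _ (h.fq (m hx))).1 e)))
  generalize π (F x) = u at *
  generalize π (F (TT.cj c x)) = u' at *
  generalize π (F y) = w at *
  have p4 : ∀ r ∈ Submodule.span (ZMod 2) {u, u'}, q r = 0 ∧ act (F s) r = r ∧ polar q w r = 0 ∧
      polar q u r = 0 ∧ polar q u' r = 0 := fun r hr => by
    obtain ⟨α, β, rfl⟩ := Submodule.mem_span_pair.1 hr
    simp [q_add, q.map_smul, v3, q2, p1, p2, p3, f1, f2, -polar_self, pol_self, polar_comm q u' u]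
  have lt : Submodule.span (ZMod 2) {u, u'} < Submodule.span (ZMod 2) {u, u'} ⊔ Submodule.span (ZMod 2) {w} :=
    left_lt_sup.2 fun e => zero_ne_one ((p4 w (e (Submodule.mem_span_singleton_self w))).1.symm.trans q3)
  have p5 : ∀ r ∈ Submodule.span (ZMod 2) {u, u'} ⊔ Submodule.span (ZMod 2) {w}, act (F s) r = r ∧
      ∀ r' ∈ Submodule.span (ZMod 2) {u, u'} ⊔ Submodule.span (ZMod 2) {w}, polar q r r' = 0 := by
    intro r hr
    obtain ⟨r, h1, _, h2, rfl⟩ := Submodule.mem_sup.1 hr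
    obtain ⟨α, rfl⟩ := Submodule.mem_span_singleton.1 h2
    refine ⟨by rw [map_add, map_smul, (p4 r h1).2.1, f3], fun r' hr' => ?_⟩
    obtain ⟨r', h3, _, h4, rfl⟩ := Submodule.mem_sup.1 hr'
    obtain ⟨β, rfl⟩ := Submodule.mem_span_singleton.1 h4
    obtain ⟨γ, δ, rfl⟩ := Submodule.mem_span_pair.1 h1
    simp [(p4 r' h3).2.2, -polar_self, pol_self, polar_comm q u w, polar_comm q u' w, p2, p3]
  obtain ⟨-, c32, es⟩ := R1.five hR s1 s2
  have d1 := R1.ab_card es (E := co.up _) (fun f hf => ⟨hf.1, mem_cen_zpowers.2 (commute_of_five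
    (s1 ▸ pow_orderOf_eq_one _) hR.big.sq s2 ((co.act_eq_iff s2 hf.1).1 (p5 _ hf.2).1))⟩) (co.z_mem_up _)
    fun f hf f' hf' => (co.comm f hf.1 f' hf'.1).2 ((p5 _ hf.2).2 _ hf'.2)
  have d2 := four_le_card (W := Submodule.span (ZMod 2) {u, u'}) (Submodule.subset_span (Or.inl rfl))
    (Submodule.subset_span (Or.inr rfl)) v2 v2' ne
  have d3 := Submodule.finrank_lt_finrank_of_lt lt
  have d4 := Nat.pow_le_pow_right (n := 2) (by decide) (Nat.succ_le_of_lt d3)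
  rw [Nat.pow_succ, ← LX.card_eq_pow, ← LX.card_eq_pow] at d4
  rw [co.card_up, c32] at d1
  nlinarith

/-- `Z` is the direct product of `⟨z⟩` and a four-group `W` normalised by `C(z)`. -/
structure Z8 (z : G) (W : Subgroup G) : Prop where
  s0 : S0 z
  le : W ≤ ZZ z
  zW : z ∉ W
  mem : ∀ ζ ∈ ZZ z, ζ ∈ W ∨ z * ζ ∈ W
  card : Nat.card W = 4
  norm : ∀ g, Commute z g → ∀ y ∈ W, cj g y ∈ W
  tr : ∀ y ∈ W, y ≠ 1 → ∀ y' ∈ W, y' ≠ 1 → ∃ g, Commute z g ∧ cj g y = y'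

/-- The conjugate of a subgroup. -/
abbrev Cj (g : G) (W : Subgroup G) : Subgroup G := W.map (MulAut.conj g).toMonoidHom

theorem mem_Cj : y ∈ Cj g W ↔ cj g⁻¹ y ∈ W := by rw [mem_map_conj_iff, cj_def, inv_inv]

theorem cj_mem_Cj : cj g y ∈ Cj g W ↔ y ∈ W := by rw [mem_Cj, cj_inv_cj]

theorem cj_ne_one (h : y ≠ 1) : cj g y ≠ 1 := fun e => h (cj_injective g (e.trans (cj_one_right g).symm))

theorem four_cases [Finite G] (hc : Nat.card W = 4) (el : ∀ y ∈ W, y * y = 1) (hy : y ∈ W) (hu : u ∈ W)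
    (y1 : y ≠ 1) (u1 : u ≠ 1) (n : y ≠ u) (hg : g ∈ W) : g = 1 ∨ g = y ∨ g = u ∨ g = y * u := by
  have c : Commute y u := comm_of_sq_eq_one el hy hu
  refine (mem_closure_pair_iff_four (el y hy) (el u hu) c).1 ((eq_of_le_of_card_ge
    ((closure_le _).2 (by rintro _ (rfl | rfl); exacts [hy, hu])) ?_).ge hg)
  rw [hc, Inv.card_closure_pair_of_commute (orderOf_eq_two_iff'.2 ⟨y1, el y hy⟩)
    (orderOf_eq_two_iff'.2 ⟨u1, el u hu⟩) n c]

/-- The centraliser of `y` normalises `W`. -/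
def NW (W : Subgroup G) (y : G) : Prop := ∀ g, Commute y g → ∀ u ∈ W, cj g u ∈ W

theorem NW.cj (h : NW W y) (g : G) : NW (Cj g W) (cj g y) := fun s hs u hu => by
  rw [mem_Cj, cj_dist]
  exact h _ (commute_cj_left.1 hs) _ (mem_Cj.1 hu)

namespace Z8

variable (h : Z8 z W)
include h

theorem cj (g : G) : Z8 (TT.cj g z) (Cj g W) :=
  ⟨h.s0.cj g, fun _ hy => mem_ZZ_cj.2 (h.le (mem_Cj.1 hy)), mt cj_mem_Cj.1 h.zW, fun ζ hζ => by
    simpa only [mem_Cj, cj_mul, cj_inv_cj] using h.mem _ (mem_ZZ_cj.1 hζ),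
    (card_map_of_injective (MulAut.conj g).injective).trans h.card, NW.cj h.norm g,
    fun y hy n y' hy' n' => by
      obtain ⟨s, h1, h2⟩ := h.tr _ (mem_Cj.1 hy) (cj_ne_one n) _ (mem_Cj.1 hy') (cj_ne_one n')
      exact ⟨TT.cj g s, commute_cj.2 h1, by rw [← cj_cj_inv g y, ← cj_dist, h2, cj_cj_inv]⟩⟩

theorem el (hy : y ∈ W) : y * y = 1 := h.s0.el y (h.le hy)

theorem comm (hy : y ∈ W) (hu : u ∈ W) : Commute y u := h.s0.ZZ_comm (h.le hy) (h.le hu)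

theorem zc (hy : y ∈ W) : Commute z y := h.le hy z h.s0.z_mem

theorem zzw (y : G) : z * (z * y) = y := by rw [← mul_assoc, h.s0.zz, one_mul]

theorem zmem (hy : y ∈ W) : z * y ∈ ZZ z := mul_mem (z_mem_ZZ z) (h.le hy)

theorem zn (hy : y ∈ W) : z * y ∉ W := mt (mul_mem_cancel_right hy).1 h.zW

theorem cen (hg : Commute z g) (k : ∀ y ∈ W, Commute y g) : g ∈ CZ z := fun ζ hζ =>
  (h.mem ζ hζ).elim (k ζ) fun e => h.zzw ζ ▸ hg.mul_left (k _ e)

theorem cases (hζ : ζ ∈ ZZ z) : ζ = 1 ∨ ζ = z ∨ (ζ ∈ W ∧ ζ ≠ 1) ∨ ∃ y ∈ W, y ≠ 1 ∧ ζ = z * y := by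
  rcases h.mem ζ hζ with k | k
  · exact (em (ζ = 1)).imp_right fun n => Or.inr (Or.inl ⟨k, n⟩)
  · refine Or.inr ((em (ζ = z)).imp_right fun n => Or.inr ⟨_, k, fun e => n ?_, (h.zzw ζ).symm⟩)
    rw [← h.zzw ζ, e, mul_one]

variable [Finite G]

theorem four (hy : y ∈ W) (hu : u ∈ W) (y1 : y ≠ 1) (u1 : u ≠ 1) (n : y ≠ u) (hg : g ∈ W) :
    g = 1 ∨ g = y ∨ g = u ∨ g = y * u := four_cases h.card (fun _ => h.el) hy hu y1 u1 n hg

omit [Finite G] in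
theorem other (y : G) : ∃ u ∈ W, u ≠ 1 ∧ u ≠ y := by
  by_contra! k
  have : (W : Set G).ncard ≤ 2 := (Set.ncard_le_ncard (t := {1, y}) fun x hx => or_iff_not_imp_left.2
    (k x hx)).trans ((Set.ncard_insert_le _ _).trans (by simp))
  exact absurd (h.card.symm.trans_le this) (by decide)

theorem swap (hy : y ∈ W) (y1 : y ≠ 1) (hu : u ∈ W) (u1 : u ≠ 1) (n : u ≠ y)
    (k : TT.cj g u ∈ W) (c : Commute y g) : TT.cj g u = u ∨ TT.cj g u = y * u := by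
  rcases h.four hy hu y1 u1 n.symm k with e | e | e
  exacts [absurd e (cj_ne_one u1), absurd (cj_injective g (e.trans (cj_of_commute c.symm).symm)) n, e]

theorem cen' (hy : y ∈ W) (y1 : y ≠ 1) (hu : u ∈ W) (u1 : u ≠ 1) (n : u ≠ y)
    (c : Commute y g) (c' : Commute u g) : ∀ s ∈ W, Commute s g := fun s hs => by
  rcases h.four hy hu y1 u1 n.symm hs with rfl | rfl | rfl | rfl
  exacts [Commute.one_left g, c, c', c.mul_left c']

theorem two (hy : y ∈ W) (y1 : y ≠ 1) (hg : Commute z g) (hg' : Commute z g') (c : Commute y g)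
    (c' : Commute y g') : g ∈ CZ z ∨ g' ∈ CZ z ∨ g * g' ∈ CZ z := by
  obtain ⟨u, hu, u1, n⟩ := h.other y
  exact (two_of_or' (h.el hy) c (h.swap hy y1 hu u1 n (h.norm g hg u hu) c)
    (h.swap hy y1 hu u1 n (h.norm g' hg' u hu) c')).imp (fun k => h.cen hg (h.cen' hy y1 hu u1 n c k))
    (Or.imp (fun k => h.cen hg' (h.cen' hy y1 hu u1 n c' k))
      fun k => h.cen (hg.mul_right hg') (h.cen' hy y1 hu u1 n (c.mul_right c') k))

theorem fix {P : Subgroup G} (hP : IsPGroup 2 P) (k : ∀ g ∈ P, ∀ y ∈ W, TT.cj g y ∈ W) :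
    ∃ y ∈ W, y ≠ 1 ∧ ∀ g ∈ P, Commute y g := by
  by_contra! n
  have := dvd_ncard_of_conj (N := P) (m := 2) ((W : Set G) \ {1})
    (fun g hg y hy => ⟨k g hg y hy.1, cj_ne_one hy.2⟩) fun y hy => by
      obtain ⟨r, e⟩ := hP.index ((centralizer {y}).subgroupOf P)
      obtain ⟨g, h1, h2⟩ := n y hy.1 hy.2
      rw [relIndex, e]
      exact dvd_pow_self 2 fun e' => h2 (mem_centralizer_singleton.1
        (relIndex_eq_one.1 (by rw [relIndex, e, e', pow_zero]) h1))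
  rw [Set.ncard_sdiff_singleton_of_mem W.one_mem, show (W : Set G).ncard = 4 from h.card] at this
  exact absurd this (by decide)

theorem fix' (gg : g * g = 1) (k : ∀ y ∈ W, TT.cj g y ∈ W) : ∃ y ∈ W, y ≠ 1 ∧ Commute y g := by
  obtain ⟨y, h1, h2, h3⟩ := h.fix (P := zpowers g) (pg_of_sq (n := 1) fun x hx => by
    rcases (mem_zpowers_iff_of_sq gg).1 hx with rfl | rfl
    exacts [one_pow _, (pow_two x).trans gg]) fun x hx y hy => by
    rcases (mem_zpowers_iff_of_sq gg).1 hx with rfl | rfl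
    exacts [by rwa [cj_one], k y hy]
  exact ⟨y, h1, h2, h3 g (mem_zpowers g)⟩

theorem uniq (h' : Z8 z W') : W ≤ W' := fun y hy => by
  by_cases y1 : y = 1
  · exact y1 ▸ one_mem _
  obtain ⟨u, hu, u1, n⟩ := h.other y
  obtain ⟨g, h1, h2⟩ := h.tr u hu u1 _ (mul_mem hy hu) fun e => n (by
    rw [← mul_one u, ← e, (h.comm hy hu).eq, ← mul_assoc, h.el hu, one_mul])
  rcases h'.mem u (h.le hu) with k | k
  · exact (mul_mem_cancel_right k).1 (h2 ▸ h'.norm g h1 u k)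
  · have := h'.norm g h1 _ k
    rwa [cj_mul, h2, cj_of_commute h1.symm, ← mul_assoc, (h.zc hy).eq, mul_assoc,
      mul_mem_cancel_right k] at this

omit [Finite G] in
theorem eight : ∀ ζ ∈ ZZ z, ∃ s ∈ ZZ z, ∃ t ∈ ZZ z, s ≠ 1 ∧ t ≠ 1 ∧ ζ * s ≠ 1 ∧ ζ * t ≠ 1 ∧ s * t ≠ 1 ∧
    ζ * (s * t) ≠ 1 := fun ζ hζ => by
  have k : ∀ {x}, x ∉ W → x ≠ 1 := fun n e => n (e ▸ one_mem _)
  have k' : ∀ {x y}, y ∈ W → x ≠ y → x * y ≠ 1 := fun hy n e => n
    (mul_right_cancel (e.trans (h.el hy).symm))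
  by_cases m : ζ ∈ W
  · obtain ⟨t, t1, t2, t3⟩ := h.other ζ
    exact ⟨z, z_mem_ZZ z, t, h.le t1, h.s0.ne, t2, k (mt (mul_mem_cancel_left m).1 h.zW), k' t1 t3.symm,
      k (h.zn t1), k (mt (mul_mem_cancel_left m).1 (h.zn t1))⟩
  · obtain ⟨s, s1, s2, -⟩ := h.other 1
    obtain ⟨t, t1, t2, t3⟩ := h.other s
    exact ⟨s, h.le s1, t, h.le t1, s2, t2, k (mt (mul_mem_cancel_right s1).1 m),
      k (mt (mul_mem_cancel_right t1).1 m), k' t1 t3.symm, k (mt (mul_mem_cancel_right (mul_mem s1 t1)).1 m)⟩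

end Z8

variable [Finite G]

/-- The local information on the centralisers of the involutions of `Z`. -/
structure ZI (z : G) (W : Subgroup G) : Prop extends Z8 z W where
  d : ∀ y ∈ W, y ≠ 1 → Iso z (z * y)
  y : ∀ y ∈ W, y ≠ 1 → Iso z y ∨ NW W y

omit [Finite G] in
theorem ZI.cj' (h : ZI z W) (g : G) : ZI (TT.cj g z) (Cj g W) :=
  ⟨h.cj g, fun y hy n => by
    simpa only [cj_mul, cj_cj_inv] using (h.d _ (mem_Cj.1 hy) (cj_ne_one n)).cj g, fun y hy n => by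
    simpa only [cj_cj_inv] using (h.y _ (mem_Cj.1 hy) (cj_ne_one n)).imp (·.cj g) (·.cj g)⟩

theorem ZI.tid (h : ZI a W') (c : Commute z a) (hy : y ∈ W') (n : y ≠ 1) :
    ∀ x ∈ QQ z, Commute (a * y) x → Commute a x := fun _ hx k =>
  h.s0.t2' (h.d y hy n) (h.zmem hy a h.s0.z_mem).symm c hx k

theorem ZI.cz (h : ZI z W) (h' : ZI a W') (c : Commute z a) (hy : y ∈ W) (y1 : y ≠ 1) (hy' : y' ∈ W')
    (y1' : y' ≠ 1) (c1 : Commute z y') (c2 : Commute y a) (c3 : Commute y y')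
    (ti : ∀ x ∈ QQ z, Commute y' x → Commute a x) : a ∈ CZ z := by
  rcases h.two hy y1 c c1 c2 c3 with k | k | k
  exacts [k, fun ζ hζ => (ti ζ (h.s0.le hζ) (mem_CZ.1 k ζ hζ).symm).symm,
    fun ζ hζ => (h'.tid c hy' y1' ζ (h.s0.le hζ) (mem_CZ.1 k ζ hζ).symm).symm]

/-- There is no pair of commuting conjugates with partial control of centralisers. -/
theorem ZI.pair [Finite Γ] (h : ZI z W) (h' : ZI a W') (n : NS z F zb π act) (ha : a ∈ Nb z)
    (hy : y ∈ W) (y1 : y ≠ 1) (hy' : y' ∈ W') (y1' : y' ≠ 1) (c1 : Commute z y') (c2 : Commute y a)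
    (c3 : Commute y y') (ti : ∀ x ∈ QQ z, Commute y' x → Commute a x)
    (ti' : ∀ x ∈ QQ a, Commute y x → Commute z x) : False := by
  have c := ha.2.2
  have a1 := z_mem_ZZ a
  have ac := h.cz h' c hy y1 hy' y1' c1 c2 c3 ti
  have zc := h'.cz h c.symm hy' y1' hy y1 c2.symm c1.symm c3.symm ti'
  have d0 : ∀ ζ ∈ ZZ a, ζ ∈ ZZ z → ζ = 1 := fun ζ h1 h2 => by
    rcases h.cases h2 with e | rfl | ⟨e, e'⟩ | ⟨u, hu, u1, rfl⟩
    · exact e
    · exact absurd (h.s0.ncj' ha.1 h1) ha.2.1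
    · refine absurd ((h.y ζ e e').elim (fun i => h.s0.t1 i ha.1 c h2 h1) fun k => ?_) ha.2.1
      obtain ⟨s, s1, rfl⟩ := h.s0.share ha.1 h2 h1
      have e : W = Cj s W := eq_of_le_of_card_ge (fun u hu => mem_Cj.2 (k _ s1.inv_right u hu))
        ((h.cj s).card.trans h.card.symm).le
      exact h.s0.ncj ha.1 fun q hq => (ti q hq (mem_ZZ.1 (h.le (e ▸ h'.uniq (h.cj s) hy')) q hq).symm).symm
    · exact absurd (h.s0.t1 (h.d u hu u1) ha.1 c h2 h1) ha.2.1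
  have cz : ∀ ζ ∈ ZZ a, ζ ∈ CZ z := fun ζ hζ η hη => cj_eq_self_iff.1 (mul_inv_eq_one.1 (d0 _
    (mul_mem (ZZ_norm (ac η hη).symm hζ) (inv_mem hζ)) (by
      rw [cj_mul_inv]; exact inv_mem (mul_mem (ZZ_norm (zc ζ hζ).symm hη) (inv_mem hη)))))
  have perp : ∀ ζ ∈ QQ z, ∀ f ∈ QQ z, B4 (π (F f)) (π (F ζ)) = 0 → Commute ζ f := fun ζ hζ f hf e =>
    (n.pcomm' hf hζ e).symm
  have aJ : a ∉ QQ z := fun aJ => by
    have aZ : a ∉ ZZ z := fun e => h'.s0.ne (d0 a a1 e)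
    have hv := n.iso_p aJ aZ h'.s0.zz
    have nq : ∀ u ∈ W', u ≠ 1 → a * u ∉ QQ z := fun u hu u1 e => u1 (by
      simpa only [h'.zzw] using d0 _ (mul_mem a1 (h'.zmem hu)) (h.s0.mem_of_le aJ e aZ (h'.tid c hu u1)))
    obtain ⟨r, r1, r2, r3⟩ := h'.fix (P := QQ z ⊓ centralizer {a}) (pg_QQ z).to_inf_left
      fun g hg => h'.norm g (mem_centralizer_singleton.1 hg.2)
    have tv : ∀ u ∈ W', u ≠ 1 → ∀ w, act (F (a * u)) w = tv4 (π (F a)) w := fun u hu u1 =>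
      n.tv_of_two (cz _ (h'.zmem hu)) (nq u hu u1) hv fun f hf f' hf' e e' => by
        have k := perp a aJ f hf e
        have k' := perp a aJ f' hf' e'
        exact (h'.two r1 r2 k k' (r3 f ⟨hf, mem_centralizer_singleton.2 k⟩)
          (r3 f' ⟨hf', mem_centralizer_singleton.2 k'⟩)).imp (· _ (h'.zmem hu))
          (Or.imp (· _ (h'.zmem hu)) (· _ (h'.zmem hu)))
    obtain ⟨u, hu, u1, n1⟩ := h'.other y'
    have := n.mul_mem_tv (cz _ (h'.zmem hu)) (cz _ (h'.zmem hy')) hv (tv u hu u1) (tv y' hy' y1')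
    rw [(h'.zc hu).symm.mul_mul_mul_comm, h'.s0.zz, one_mul] at this
    exact nq _ (mul_mem hu hy') (fun e => n1 (mul_right_cancel (e.trans (h'.el hy').symm))) (mul_mem aJ this)
  have nq : ∀ ζ ∈ ZZ a, (∀ x ∈ QQ z, Commute ζ x → Commute a x) → ζ ∉ QQ z := fun ζ hζ k e =>
    aJ (n.mem_of_cen ac e (h'.s0.el ζ hζ) k)
  have tiy : ∀ u ∈ W', u ≠ 1 → Iso a u → ∀ x ∈ QQ z, Commute u x → Commute a x := fun u hu _ i x hx k =>
    h'.s0.t2' i (h'.zc hu).symm c hx k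
  have wJ : ∀ u ∈ W', u ∈ QQ z → u = 1 := fun u hu uJ => by_contra fun u1 => by
    have n1 : y' ≠ u := fun e => nq y' (h'.le hy') ti (e ▸ uJ)
    refine (h'.y u hu u1).elim (fun i => nq u (h'.le hu) (tiy u hu u1 i) uJ) fun k => ?_
    have hv := n.iso_p uJ (fun e => u1 (d0 u (h'.le hu) e)) (h'.el hu)
    have k1 := fun f hf f' hf' e e' => two_of_or' (h'.el hu) (perp u uJ f hf e)
      (h'.swap hu u1 hy' y1' n1 (k f (perp u uJ f hf e) y' hy') (perp u uJ f hf e))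
      (h'.swap hu u1 hy' y1' n1 (k f' (perp u uJ f' hf' e') y' hy') (perp u uJ f' hf' e'))
    exact nq _ (h'.zmem hy') (h'.tid c hy' y1') (n.mul_mem_tv ac (cz _ (h'.le hy')) hv
      (n.tv_of_two ac aJ hv fun f hf f' hf' e e' => (k1 f hf f' hf' e e').imp (ti f hf)
        (Or.imp (ti f' hf') (ti _ (mul_mem hf hf'))))
      (n.tv_of_two (cz _ (h'.le hy')) (nq y' (h'.le hy') ti) hv k1))
  have t0 : ∀ ζ ∈ ZZ a, ζ ≠ 1 → ∀ f ∈ QQ z, Commute ζ f → Commute a f := fun ζ hζ n1 => by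
    rcases h'.cases hζ with e | rfl | ⟨e, e'⟩ | ⟨u, hu, u1, rfl⟩
    · exact absurd e n1
    · exact fun _ _ => id
    · refine (h'.y ζ e e').elim (tiy ζ e e') fun k f hf cf => ti f hf (cj_eq_self_iff.1 (mul_inv_eq_one.1
        (wJ _ (mul_mem (k f cf y' hy') (inv_mem hy')) (NS.cm_mem c1 hf)))).symm
    · exact h'.tid c hu u1
  exact n.not_eight (TP.of_dis h'.s0 cz (fun ζ hζ e => by_contra fun n1 => nq ζ hζ (t0 ζ hζ n1) e) t0
    ⟨y', h'.le hy', y1', fun e => h'.zW (e ▸ hy')⟩) h'.eight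

end Cfsg.Agent.F22X
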