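import Mathlib
import Cfsg.Agent.F22X.Z8

/-!
The hypotheses of the characterisation of `Fi₂₃`.
-/

set_option autoImplicit false

namespace Cfsg.Agent.F22X

open Cfsg.Agent.Spor Cfsg.Agent.Spor.TT Cfsg.Agent.LX Subgroup

variable {G A : Type*} [Group G] [Group A] {z c g s x y ζ : G} {V W : Subgroup G} {X0 : Subgroup A}
  {φ : G → A}

theorem card_two [Finite G] {Z : Subgroup G} (le : W ≤ Z) (hz : z ∈ Z) (n : z ∉ W)
    (k : ∀ x ∈ Z, x ∈ W ∨ z * x ∈ W) : Nat.card Z = 2 * Nat.card W := by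
  rw [FG.card_eq_relIndex_mul_card_inf W Z, inf_eq_left.2 le, 
    relIndex_eq_two_iff_exists_notMem_and'.2 ⟨z, hz, n, fun x hx => (k x hx).symm⟩]

theorem conj3 [Finite G] {J : Subgroup G} (hJ : IsPGroup 2 J) (hc : ∀ j ∈ J, cj c j ∈ J)
    (c3 : c * c * c = 1) (x3 : x * x * x = 1) (k : x * c⁻¹ ∈ J) : ∃ j ∈ J, cj j c = x := by
  classical
  have := Fintype.ofFinite J
  let f : J → J := fun j => ⟨x * j * c⁻¹, by
    simpa only [cj_def, mul_assoc, inv_mul_cancel_left] using mul_mem k (hc j j.2)⟩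
  have e : ∀ j, f (f (f j)) = j := fun j => Subtype.ext (by
    change x * (x * (x * j * c⁻¹) * c⁻¹) * c⁻¹ = j
    rw [show x * (x * (x * j * c⁻¹) * c⁻¹) * c⁻¹ = x * x * x * j * (c * c * c)⁻¹ by group, x3, c3]
    simp)
  obtain ⟨n, hn⟩ := IsPGroup.iff_card.1 hJ
  obtain ⟨j, hj⟩ := Equiv.Perm.exists_fixed_point_of_prime (p := 3) (n := 1)
    (σ := ⟨f, f ∘ f, e, e⟩) (by
      rw [← Nat.card_eq_fintype_card, hn]
      exact fun d => absurd (Nat.Prime.dvd_of_dvd_pow Nat.prime_three d) (by decide)) (Equiv.ext e)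
  exact ⟨j, j.2, by
    rw [cj_def, mul_inv_eq_iff_eq_mul, ← eq_mul_inv_iff_mul_eq]; exact (congrArg Subtype.val hj).symm⟩

/-- The hypotheses of the theorem. -/
structure H3 (z c : G) (V : Subgroup G) (φ : G → A) (X0 : Subgroup A) : Prop extends DP z z V where
  cV : Nat.card V = 4
  cz : Commute z c
  c3 : c * c * c = 1
  fp : ∀ x ∈ QQ z, Commute c x → x = 1 ∨ x = z
  ax : AX X0
  mu : Mu z φ
  one : ∀ x ∈ QQ z, φ x = 1
  pc : φ c = 1
  ker : ∀ g, Commute z g → φ g = 1 → g ∈ QQ z ∨ g * c ∈ QQ z ∨ g * c⁻¹ ∈ QQ z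
  surj : ∀ a, ∃ g, Commute z g ∧ φ g = a
  cen : ∀ g, Commute z g → Commute c g → φ g ∈ X0
  out : ∃ a, a ∉ X0

/-- The consequences that are used. -/
structure H8 (z c : G) (W : Subgroup G) (φ : G → A) (X0 : Subgroup A) : Prop extends Z8 z W where
  cJ : Nat.card (QQ z) = 2048
  ax : AX X0
  ph : Ph z φ X0
  kr : ∀ g, Commute z g → φ g = 1 → ∀ ζ ∈ ZZ z, ζ ≠ 1 → ζ ≠ z → Commute ζ g → g ∈ QQ z
  X : ∀ g ∈ CZ z, φ g ∈ X0
  sw : ∀ y ∈ W, y ≠ 1 → ∃ t, Commute z t ∧ Commute y t ∧ t ∉ CZ z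
  cz : Commute z c
  c3 : c * c * c = 1
  fp : ∀ x ∈ QQ z, cj c x * x⁻¹ ∈ ZZ z → x ∈ ZZ z
  cc : ∀ g ∈ CZ z, g⁻¹ * cj c⁻¹ g ∈ QQ z
  cf : ∀ y ∈ W, y ≠ 1 → ¬ Commute y c

namespace H3

variable (h : H3 z c V φ X0)
include h

theorem zc (hx : x ∈ ZZ z) (hy : y ∈ ZZ z) : Commute x y := hy x (h.le hx)

theorem ccc (x : G) : cj c (cj c (cj c x)) = x := by rw [cj_cj, cj_cj, h.c3, cj_one]

theorem ci (x : G) : cj c⁻¹ x = cj c (cj c x) := by rw [cj_eq_iff, inv_inv, h.ccc]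

theorem cm (hx : x ∈ ZZ z) : cj c x ∈ ZZ z := ZZ_norm h.cz hx

theorem nm (hx : x ∈ ZZ z) (hy : y ∈ ZZ z) : x * y * cj c (x * y) * cj c (cj c (x * y)) =
    x * cj c x * cj c (cj c x) * (y * cj c y * cj c (cj c y)) := by
  rw [cj_mul, cj_mul, (h.zc hy (h.cm hx)).mul_mul_mul_comm,
    (h.zc (mul_mem hy (h.cm hy)) (h.cm (h.cm hx))).mul_mul_mul_comm]

theorem rot (hx : x ∈ ZZ z) :
    cj c x * cj c (cj c x) * cj c (cj c (cj c x)) = x * cj c x * cj c (cj c x) := by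
  rw [h.ccc, (h.zc (mul_mem (h.cm hx) (h.cm (h.cm hx))) hx).eq, mul_assoc]

/-- The elements of `Z` of trivial norm. -/
def WN : Subgroup G where
  carrier := {x | x ∈ ZZ z ∧ x * cj c x * cj c (cj c x) = 1}
  one_mem' := ⟨one_mem _, by simp only [cj_one_right, mul_one]⟩
  mul_mem' := fun hx hy => ⟨mul_mem hx.1 hy.1, by rw [h.nm hx.1 hy.1, hx.2, hy.2, mul_one]⟩
  inv_mem' := fun hx => by rwa [inv_eq_of_mul_eq_one_right (h.elZ _ hx.1)]

theorem nz : z * cj c z * cj c (cj c z) = z := by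
  rw [cj_of_commute h.cz.symm, cj_of_commute h.cz.symm, h.ee, one_mul]

theorem zW : z ∉ h.WN := fun k => h.e1 (h.nz.symm.trans k.2)

theorem memW (hx : x ∈ ZZ z) : x ∈ h.WN ∨ z * x ∈ h.WN :=
  (h.fp _ (h.le (mul_mem (mul_mem hx (h.cm hx)) (h.cm (h.cm hx)))) (cj_eq_self_iff.1 (by
    rw [cj_mul, cj_mul, h.rot hx]))).imp (fun k => ⟨hx, k⟩) fun k =>
    ⟨mul_mem h.eZ hx, by rw [h.nm h.eZ hx, h.nz, k, h.ee]⟩

theorem cW (hx : x ∈ h.WN) : cj c x ∈ h.WN := ⟨h.cm hx.1, (h.rot hx.1).trans hx.2⟩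

theorem mul_cj (hx : x ∈ ZZ z) : x * cj c x ∈ h.WN := ⟨mul_mem hx (h.cm hx), by
  rw [h.nm hx (h.cm hx), h.rot hx, h.elZ _ (mul_mem (mul_mem hx (h.cm hx)) (h.cm (h.cm hx)))]⟩

theorem cf (hx : x ∈ ZZ z) (n : x ≠ 1) (n' : x ≠ z) : ¬ Commute x c := fun k =>
  (h.fp x (h.le hx) k.symm).elim n n'

theorem kr (hg : Commute z g) (e : φ g = 1) (hζ : ζ ∈ ZZ z) (n : ζ ≠ 1) (n' : ζ ≠ z) (k : Commute ζ g) :
    g ∈ QQ z := by
  rcases h.ker g hg e with m | m | m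
  · exact m
  · exact absurd (by simpa only [inv_mul_cancel_left] using
      k.inv_right.mul_right (mem_ZZ.1 hζ _ m).symm) (h.cf hζ n n')
  · exact absurd (by simpa only [inv_mul_cancel_left, inv_inv] using
      (k.inv_right.mul_right (mem_ZZ.1 hζ _ m).symm).inv_right) (h.cf hζ n n')

theorem act (hg : Commute z g) (e : φ g = 1) : (∀ x ∈ ZZ z, cj g x = x) ∨
    (∀ x ∈ ZZ z, cj g x = cj c⁻¹ x) ∨ ∀ x ∈ ZZ z, cj g x = cj c x :=
  (h.ker g hg e).imp (fun m _ hx => cj_of_commute (hx g m)) (Or.imp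
    (fun m x hx => by rw [← cj_of_commute (ZZ_norm h.cz.inv_right hx _ m), cj_cj, mul_inv_cancel_right])
    fun m x hx => by rw [← cj_of_commute (h.cm hx _ m), cj_cj, inv_mul_cancel_right])

theorem pcj (hg : Commute z g) : φ (cj g c) = 1 := by rw [h.mu.cj hg h.cz, h.pc, cj_one_right]

theorem norm (hg : Commute z g) (hy : y ∈ h.WN) : cj g y ∈ h.WN := by
  have m := ZZ_norm hg (h.cm hy.1)
  have e : cj g y = cj g (cj c y) * cj (cj g c) (cj g (cj c y)) := by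
    rw [← cj_dist, ← cj_mul, cj_inj, ← mul_right_inj y, ← mul_assoc, hy.2, h.elZ y hy.1]
  rcases h.act (commute_cj_of_commute hg h.cz) (h.pcj hg) with k | k | k <;> rw [e, k _ m]
  · rw [h.elZ _ m]; exact one_mem _
  · have := h.mul_cj (ZZ_norm h.cz.inv_right m)
    rwa [cj_cj_inv, (h.zc (ZZ_norm h.cz.inv_right m) m).eq] at this
  · exact h.mul_cj m

theorem fp' (hx : x ∈ QQ z) (k : cj c x * x⁻¹ ∈ ZZ z) : x ∈ ZZ z := by
  obtain ⟨ζ, hζ, e⟩ : ∃ ζ ∈ ZZ z, cj c x = ζ * x := ⟨_, k, cj_eq_mul c x⟩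
  have e1 := h.ccc x
  rw [e, cj_mul, e, cj_mul, cj_mul, e, ← mul_assoc, ← mul_assoc, mul_eq_right] at e1
  have := h.fp _ (mul_mem (h.le (h.cm hζ)) hx) (cj_eq_self_iff.1 (by
    rw [cj_mul, e, ← mul_assoc, mul_left_inj, ← mul_left_inj (cj c ζ), h.elZ _ (h.cm hζ), ← e1,
      mul_assoc, mul_assoc, (h.zc hζ (h.cm hζ)).eq]))
  refine (mul_mem_cancel_left (h.cm hζ)).1 ?_
  rcases this with e | e <;> rw [e]
  exacts [one_mem _, h.eZ]

variable [Finite G]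

theorem cardW : Nat.card h.WN = 4 := by
  have k1 := card_two h.VZ h.eZ h.eV h.mem
  have k2 := card_two (W := h.WN) (fun _ hx => hx.1) h.eZ h.zW fun _ => h.memW
  have := h.cV
  omega

theorem four (hx : x ∈ h.WN) (hy : y ∈ h.WN) (x1 : x ≠ 1) (y1 : y ≠ 1) (n : x ≠ y) (hg : g ∈ h.WN) :
    g = 1 ∨ g = x ∨ g = y ∨ g = x * y := four_cases h.cardW (fun y hy => h.elZ y hy.1) hx hy x1 y1 n hg

omit [Finite G] in
theorem cne (hy : y ∈ h.WN) (y1 : y ≠ 1) : y ≠ cj c y := fun e =>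
  h.cf hy.1 y1 (fun e => h.zW (e ▸ hy)) (cj_eq_self_iff.1 e.symm).symm

theorem tr (hy : y ∈ h.WN) (y1 : y ≠ 1) (hx : x ∈ h.WN) (x1 : x ≠ 1) :
    ∃ s, Commute z s ∧ φ s = 1 ∧ cj s y = x := by
  rcases h.four hy (h.cW hy) y1 (cj_ne_one y1) (h.cne hy y1) hx with e | e | e | e
  · exact absurd e x1
  · exact ⟨1, Commute.one_right z, h.mu.one, by rw [cj_one, e]⟩
  · exact ⟨c, h.cz, h.pc, e.symm⟩
  · refine ⟨c⁻¹, h.cz.inv_right, by rw [h.mu.inv h.cz, h.pc, inv_one], ?_⟩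
    rw [h.ci, e, ← mul_right_inj (y * cj c y), hy.2, h.elZ _ (mul_mem hy.1 (h.cm hy.1))]

theorem tr' (hy : y ∈ h.WN) (y1 : y ≠ 1) (hg : Commute z g) :
    ∃ s, Commute z s ∧ φ s = φ g ∧ Commute y s := by
  obtain ⟨s, h1, h2, h3⟩ := h.tr (h.norm hg hy) (cj_ne_one y1) hy y1
  exact ⟨s * g, h1.mul_right hg, by rw [h.mu _ _ h1 hg, h2, one_mul],
    (cj_eq_self_iff.1 ((cj_cj _ _ _).symm.trans h3)).symm⟩

theorem exW : ∃ y ∈ h.WN, y ≠ 1 := by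
  by_contra! k
  have := h.cardW
  rw [(eq_bot_iff_forall _).2 k, card_bot] at this
  exact absurd this (by decide)

theorem ph : Ph z φ X0 := h.mu.ph h.ax h.one h.surj fun g hg => by
  obtain ⟨y, hy, y1⟩ := h.exW
  obtain ⟨s, h1, h2, h3⟩ := h.tr' hy y1 hg
  have k : ∀ u ∈ h.WN, Commute u (s * s) := fun u hu => by
    by_cases u1 : u = 1
    · exact u1 ▸ Commute.one_left _
    by_cases n : y = u
    · exact n ▸ h3.mul_right h3
    rcases h.four hy hu y1 u1 n (h.norm h1 hu) with e | e | e | e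
    · exact absurd e (cj_ne_one u1)
    · exact absurd (cj_injective s ((cj_of_commute h3.symm).trans e.symm)) n
    · exact (cj_eq_self_iff.1 e).symm.mul_right (cj_eq_self_iff.1 e).symm
    · exact (cj_eq_self_iff.1 (by rw [← cj_cj, e, cj_mul, e, cj_of_commute h3.symm, ← mul_assoc,
        h.elZ y hy.1, one_mul])).symm
  refine ⟨s * s, fun ζ hζ => (h.memW hζ).elim (k ζ) fun m => ?_, by rw [h.mu _ _ h1 h1, h2, h.mu _ _ hg hg]⟩
  simpa only [← mul_assoc, h.ee, one_mul] using ((h1.mul_right h1).mul_left (k _ m)).eq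

theorem s0 : S0 z := by
  obtain ⟨y, hy, y1⟩ := h.exW
  have yz : y ≠ z := fun e => h.zW (e ▸ hy)
  refine h.ph.s0 h.ax h.e1 h.le h.elZ h.comm h.sq h.nonab' (fun g hg e ⟨n, k⟩ => h.kr hg e hy.1 y1 yz ?_)
    fun g hg e => ?_
  · have k3 : cj (g ^ 3) y = y := by
      rw [pow_succ, sq, ← cj_cj, ← cj_cj]
      rcases h.act hg e with m | m | m
      · rw [m y hy.1, m y hy.1, m y hy.1]
      · have i := fun x => ZZ_norm (x := x) h.cz.inv_right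
        rw [m y hy.1, m _ (i _ hy.1), m _ (i _ (i _ hy.1)), h.ci (cj c⁻¹ _), cj_cj_inv, cj_cj_inv]
      · rw [m y hy.1, m _ (h.cm hy.1), m _ (h.cm (h.cm hy.1)), h.ccc]
    exact mem_cen_zpowers.2 (cj_eq_self_iff.1 k3) g (mem_zpowers_pow_iff.2 (Nat.Coprime.coprime_dvd_right
      (orderOf_dvd_of_pow_eq_one k) (Nat.Coprime.pow_right n (by decide)))) |>.symm
  · have jt : ∀ x ∈ QQ z, x ∈ TJ z := fun x hx => ⟨comm_QQ hx, fun q hq => by
      rcases h.comm x hx q hq with e | e <;> rw [e]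
      exacts [by rw [mul_inv_cancel]; exact one_mem _, by rw [mul_inv_cancel_right]; exact h.eZ]⟩
    have n : c ∉ TJ z := fun m => let ⟨x, h1, h2⟩ := h.nonab'; h2 (h.fp' h1 (m.2 x h1))
    rcases h.ker g hg.1 e with m | m | m
    exacts [m, absurd ((mul_mem_cancel_left hg).1 (jt _ m)) n,
      absurd (inv_mem_iff.1 ((mul_mem_cancel_left hg).1 (jt _ m))) n]

theorem cc (hg : g ∈ CZ z) : cj g c * c⁻¹ ∈ QQ z := by
  obtain ⟨y, hy, y1⟩ := h.exW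
  have k := comm_CZ hg
  have m : cj g c * c⁻¹ ∈ CZ z := by
    rw [cj_mul_inv]; exact inv_mem (mul_mem (CZ_norm h.cz hg) (inv_mem hg))
  exact h.kr (comm_CZ m) (by rw [h.mu _ _ (commute_cj_of_commute k h.cz) h.cz.inv_right, h.pcj k,
    h.mu.inv h.cz, h.pc, inv_one, mul_one]) hy.1 y1 (fun e => h.zW (e ▸ hy)) (m y hy.1)

theorem memX (hg : g ∈ CZ z) : φ g ∈ X0 := by
  obtain ⟨j, h1, h2⟩ := conj3 (pg_QQ z) (fun _ => QQ_norm h.cz) h.c3
    (by rw [← cj_mul, ← cj_mul, h.c3, cj_one_right]) (h.cc hg)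
  have c1 := comm_QQ h1
  have := h.cen (j⁻¹ * g) (c1.inv_right.mul_right (comm_CZ hg))
    (cj_eq_self_iff.1 (by rw [← cj_cj, ← h2, cj_inv_cj])).symm
  rwa [h.mu _ _ c1.inv_right (comm_CZ hg), h.one _ (inv_mem h1), one_mul] at this

theorem h8 : H8 z c h.WN φ X0 :=
  ⟨⟨h.s0, fun _ hx => hx.1, h.zW, fun _ => h.memW, h.cardW, fun _ hg _ => h.norm hg,
    fun _ hy y1 _ hx x1 => let ⟨s, h1, _, h2⟩ := h.tr hy y1 hx x1; ⟨s, h1, h2⟩⟩,
    by rw [h.card, h.cV], h.ax, h.ph, fun _ hg e _ => h.kr hg e, fun _ => h.memX, fun y hy y1 => by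
      obtain ⟨a, n⟩ := h.out
      obtain ⟨g, hg, rfl⟩ := h.surj a
      obtain ⟨s, h1, h2, h3⟩ := h.tr' hy y1 hg
      exact ⟨s, h1, h3, fun m => n (h2 ▸ h.memX m)⟩, h.cz, h.c3, fun _ => h.fp', fun g hg => by
      convert QQ_norm h.cz.inv_right (inv_mem (h.cc (inv_mem hg))) using 1
      simp only [cj_def]; group,
    fun y hy y1 => h.cf hy.1 y1 fun e => h.zW (e ▸ hy)⟩

end H3

end Cfsg.Agent.F22X
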