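import Mathlib
import Cfsg.Agent.F22X.H3
import Cfsg.Agent.Spor.Fi22.Main
import Cfsg.Agent.S1714

/-!
Recognition of `Fi₂₃` by the centraliser of a 2-central involution.
-/

set_option autoImplicit false

namespace Cfsg.Agent.F22X

open Cfsg.Agent.Spor Cfsg.Agent.Spor.TT Cfsg.Agent.LX Cfsg.Agent.Cl Subgroup

variable {G Γ A : Type*} [Group G] [Group Γ] [Group A] {z a c g t u y ζ : G} {W : Subgroup G}
  {X0 : Subgroup A} {φ : G → A} {F : G → Γ} {zb : Γ} {π : Γ → V4} {act : Γ → V4 → V4}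

theorem S0.noncomm (h : S0 z) : ¬ IsMulCommutative G := fun c =>
  let ⟨x, _, h2⟩ := h.nonab; h2 fun q _ => c.is_comm.comm q x

theorem S0.sec0 (h : S0 z) (hζ : ζ ∈ ZZ z) (n : ζ ≠ z) [((zpowers ζ).subgroupOf (centralizer {ζ})).Normal] :
    ∃ (F : G → centralizer ({ζ} : Set G) ⧸ (zpowers ζ).subgroupOf (centralizer {ζ})) (zb : _),
      Sec0 z (centralizer {ζ}) (zpowers ζ) F zb :=
  let ⟨F, k, _⟩ := exists_sec0 h (K := zpowers ζ) _ (QuotientGroup.mk'_surjective ((zpowers ζ).subgroupOf _))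
    (fun g => QuotientGroup.eq_one_iff g)
    (zpowers_le.2 (mem_centralizer_singleton.2 (Commute.refl ζ))) (zpowers_le.2 hζ)
    (mem_centralizer_singleton.2 (hζ z h.z_mem).symm)
    (fun e => ((mem_zpowers_iff_of_sq (h.el ζ hζ)).1 e).elim h.ne n.symm)
    fun g hg => ⟨1, one_mem _, by rw [mul_one]; exact mem_centralizer_singleton.2 (hg ζ hζ)⟩
  ⟨F, _, k⟩

theorem not_iso (n : ¬ Iso z ζ) : ∃ c, Commute ζ c ∧ Commute z (cj c z) ∧ cj c z ≠ z := by
  by_contra! e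
  exact n e

variable [Finite G]

theorem quasi_cen [((zpowers ζ).subgroupOf (centralizer {ζ})).Normal]
    (hq : IsQuasisimple (centralizer ({ζ} : Set G) ⧸ (zpowers ζ).subgroupOf (centralizer {ζ})))
    (hd : ζ ∈ ⁅centralizer ({ζ} : Set G), centralizer ({ζ} : Set G)⁆) :
    IsQuasisimple (centralizer ({ζ} : Set G)) := by
  have k : (QuotientGroup.mk' ((zpowers ζ).subgroupOf (centralizer ({ζ} : Set G)))).ker ≤ center _ :=
    fun x hx => mem_center_iff.2 fun y => Subtype.ext (mem_cen_zpowers.2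
      (mem_centralizer_singleton.1 y.2) x ((QuotientGroup.eq_one_iff x).1 hx)).symm
  have k1 := (hq.commutator_of_ker_le_center (QuotientGroup.mk'_surjective _) k).1
  have : Group.IsPerfect (centralizer ({ζ} : Set G)) := ⟨by
    rw [← k1, QuotientGroup.ker_mk', left_eq_sup, ← map_subtype_le_map_subtype, map_subtype_commutator,
      subgroupOf_map_subtype]
    exact inf_le_left.trans (zpowers_le.2 hd)⟩
  exact hq.of_ker_le_center (QuotientGroup.mk'_surjective _) k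

theorem Z8.ncj (h : Z8 z W) (hy : y ∈ W) (hu : u ∈ W) : ¬ IsConj y (z * u) := fun k => by
  obtain ⟨g, e⟩ := exists_cj k
  obtain ⟨s, h1, h2⟩ := h.s0.fus (h.le hy) (e ▸ h.zmem hu)
  exact h.zn hu (e ▸ h2 ▸ h.norm s h1 y hy)

theorem Z8.cj_of_not (h : Z8 z W) (hy : y ∈ W) (y1 : y ≠ 1) (hu : u ∈ W) (u1 : u ≠ 1) (n : u ≠ y)
    (h1 : Commute z t) (h2 : Commute y t) (h3 : t ∉ CZ z) : TT.cj t u = y * u :=
  (h.swap hy y1 hu u1 n (h.norm t h1 u hu) h2).resolve_left fun e =>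
    h3 (h.cen h1 (h.cen' hy y1 hu u1 n h2 (cj_eq_self_iff.1 e).symm))

theorem ZI.gamma [Finite Γ] (h : ZI z W) (n : NS z F zb π act) (k : ∀ y ∈ W, y ≠ 1 → Iso z y) :
    a ∉ Nb z := fun ha => by
  obtain ⟨g, rfl⟩ := exists_cj ha.1
  have h' := h.cj' g
  have c := ha.2.2
  obtain ⟨y', h1, h2, h3⟩ := h'.fix' h.s0.zz (h'.norm z c.symm)
  obtain ⟨y, h4, h5, h6⟩ := h.fix' (h'.el h1) (h.norm y' h3.symm)
  have ti : ∀ x ∈ QQ z, Commute y' x → Commute (TT.cj g z) x := fun x hx e => h'.s0.t2'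
    (cj_cj_inv g y' ▸ (k _ (mem_Cj.1 h1) (cj_ne_one h2)).cj g) (h'.zc h1).symm c hx e
  exact h.pair h' n ha h4 h5 h1 h2 h3.symm (ti y (h.s0.le (h.le h4)) h6.symm).symm h6 ti
    fun x hx e => h.s0.t2' (k y h4 h5) (h.zc h4).symm c.symm hx e

theorem ZI.normal [Finite Γ] (h : ZI z W) (n : NS z F zb π act) (k : ∀ y ∈ W, y ≠ 1 → NW W y) :
    W.Normal := by
  have k1 : ∀ y ∈ W, y ≠ 1 → ∀ s, IsConj y s → Commute y s → s ∈ W := fun y hy y1 s hs c0 => by
    obtain ⟨g0, rfl⟩ := exists_cj hs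
    obtain ⟨c, g, e1, e2, e3, e4, e5, e6, e7⟩ := h.s0.extremal (h.le hy) c0
    by_cases e : TT.cj g z = z
    · have := k y hy y1 _ e1.inv_right _ (h.norm g (cj_eq_self_iff.1 e).symm y hy)
      rwa [e2, cj_inv_cj] at this
    · exact (h.pair (h.cj' g) n ⟨LX.isConj_cj g z, e, e3⟩ hy y1 (cj_mem_Cj.2 hy) (cj_ne_one y1) e4 e5.symm
        (e2 ▸ commute_cj_of_commute e1 c0) e6 e7).elim
  have tr : ∀ y ∈ W, y ≠ 1 → ∀ u ∈ W, u ≠ 1 → IsConj y u := fun y hy y1 u hu u1 =>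
    let ⟨g, _, e⟩ := h.tr y hy y1 u hu u1; e ▸ LX.isConj_cj g y
  have k2 : ∀ y ∈ W, y ≠ 1 → ∀ s, IsConj y s → (∀ u ∈ W, TT.cj s u ∈ W) → s ∈ W := fun y hy y1 s hs m => by
    obtain ⟨g, rfl⟩ := exists_cj hs
    obtain ⟨u, hu, u1, c⟩ := h.fix' (by rw [← cj_mul, h.el hy, cj_one_right]) m
    exact k1 u hu u1 _ ((tr u hu u1 y hy y1).trans hs) c
  have k3 : ∀ y ∈ W, y ≠ 1 → NW W (z * y) := fun y hy y1 g hg => by
    have cz : ∀ x ∈ QQ z, Commute (z * y) x := fun x hx => (mem_ZZ.1 (h.zmem hy) x hx).symm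
    obtain ⟨o, ho, s, hs, e⟩ := (h.s0.isolated (h.d y hy y1) (cz z h.s0.z_mem)).exists_oddCore_mul_commute
      ⟨g, mem_centralizer_singleton.2 hg⟩
    set K := (oddCore (centralizer ({z * y} : Set G))).map (Subgroup.subtype _)
    have odd : Odd (Nat.card K) := by
      rw [card_map_of_injective (subtype_injective _)]; exact GT.odd_card_oddCore
    have nK : ∀ q ∈ QQ z, ∀ x ∈ K, TT.cj q x ∈ K := by
      rintro q hq _ ⟨x, hx, rfl⟩
      exact ⟨_, cj_mem_of_normal ⟨q, mem_centralizer_singleton.2 (cz q hq)⟩ hx, rfl⟩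
    have iz := h.s0.inv_odd odd nK
    have iy : ∀ x ∈ K, TT.cj y x = x⁻¹ := by
      rintro _ ⟨x, hx, rfl⟩
      have := congrArg (TT.cj z) (cj_of_commute (mem_centralizer_singleton.1 x.2))
      rw [cj_cj, h.zzw] at this
      exact this.trans (iz _ ⟨x, hx, rfl⟩)
    have ab : ∀ x ∈ K, ∀ x' ∈ K, Commute x x' := fun x hx x' hx' => by
      have := iz _ (mul_mem hx hx')
      rw [cj_mul, iz x hx, iz x' hx', ← mul_inv_rev, inv_inj] at this
      exact this.symm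
    obtain ⟨u, hu, u1, n1⟩ := h.other y
    have oK : (o : G) ∈ K := ⟨o, ho, rfl⟩
    have m := nK u (h.s0.le (h.le hu)) _ oK
    have uu : ∀ x, TT.cj u (TT.cj u x) = x := fun x => by rw [cj_cj, h.el hu, cj_one]
    have r1 := k u hu u1 (o * TT.cj u o) (cj_eq_self_iff.1 (by rw [cj_mul, uu, (ab _ oK _ m).eq]))
    have r2 := k _ (mul_mem hy hu) (fun e => n1 (mul_left_cancel (e.trans (h.el hy).symm)))
      (o * (TT.cj u o)⁻¹) (cj_eq_self_iff.1 (by
        rw [← cj_cj, cj_mul u, cj_inv, uu, iy _ (mul_mem m (inv_mem oK)), mul_inv_rev, inv_inv]))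
    have r3 : (o : G) * o ∈ normalizer (W : Set G) := by
      have := mul_mem (mem_norm_of_cj r2) (mem_norm_of_cj r1)
      rwa [(ab _ oK _ m).eq, mul_assoc, inv_mul_cancel_left] at this
    have r4 : (o : G) ∈ normalizer (W : Set G) := zpowers_le.2 r3 (by
      rw [← pow_two]
      exact mem_zpowers_pow_iff.2 (Nat.coprime_two_left.2 (odd.of_dvd_nat (K.orderOf_dvd_natCard oK))))
    intro v hv
    rw [show g = o * s from congrArg Subtype.val e, ← cj_cj]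
    exact cj_mem_of_normalizer r4 (h.norm s (congrArg Subtype.val hs.symm.eq) v hv)
  have k4 : ∀ ζ ∈ ZZ z, ζ ≠ 1 → NW W ζ := fun ζ hζ n => by
    rcases h.cases hζ with e | rfl | ⟨e, e'⟩ | ⟨u, hu, u1, rfl⟩
    exacts [absurd e n, h.norm, k ζ e e', k3 u hu u1]
  refine ⟨fun y hy g => inv_inv g ▸ (mem_Cj (g := g⁻¹) (W := W) (y := y)).1 ?_⟩
  by_cases y1 : y = 1
  · exact y1 ▸ one_mem _
  generalize g⁻¹ = g
  obtain ⟨u, hu, u1, -⟩ := h.other 1
  have dd := h.s0.el _ (h.zmem hu)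
  have dd' : TT.cj g (z * u) * TT.cj g (z * u) = 1 := by rw [← cj_mul, dd, cj_one_right]
  have nc : ¬ IsConj y (TT.cj g (z * u)) := fun c => h.ncj hy hu (c.trans (LX.isConj_cj g _).symm)
  obtain ⟨i, i1, -, i2, i3, i4⟩ := dih_even (h.el hy) dd' (Inv.even_orderOf_mul_of_not_isConj (h.el hy) dd' nc)
  have cj1 : ∀ s, IsConj y s → IsConj y (TT.cj g⁻¹ s) := fun s hs => hs.trans (LX.isConj_cj _ s)
  have n3 := k3 u hu u1
  have iZ : TT.cj g⁻¹ i ∈ ZZ z := by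
    rcases i4 with ⟨c, -⟩ | ⟨-, c⟩
    · have m := (mul_mem_cancel_left hy).1 (k1 y hy y1 _ c ((Commute.refl y).mul_right i2))
      exact h.le (k2 y hy y1 _ (cj1 i (tr y hy y1 i m i1)) (n3 _ (commute_cj_left.1 i3)))
    · have := h.le (k2 y hy y1 _ (cj1 _ c) (n3 _ (commute_cj_left.1 ((Commute.refl _).mul_right i3))))
      rwa [cj_mul, cj_inv_cj, mul_mem_cancel_left (h.zmem hu)] at this
  exact mem_Cj.2 (k2 y hy y1 _ (cj1 y (IsConj.refl y)) (k4 _ iZ (cj_ne_one i1) _ (commute_cj.2 i2.symm)))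

namespace H8

variable (h : H8 z c W φ X0)
include h

theorem hy (hy : y ∈ W) (y1 : y ≠ 1) (hu : u ∈ W) (u1 : u ≠ 1) (n : u ≠ y) (e : ζ = y ∨ ζ = z * y)
    (k : Sec0 z (centralizer {ζ}) (zpowers ζ) F zb) : ∃ ψ, Hy zb (F u) ψ X0 := by
  have := k.finite
  have hζ : ζ ∈ ZZ z := k.KZ (mem_zpowers ζ)
  have ζζ := h.s0.el ζ hζ
  have n1 : ζ ≠ 1 := e.elim (· ▸ y1) fun e e' => h.zn hy (e ▸ e' ▸ one_mem _)
  have n2 : ζ ≠ z := fun e => k.zK (e ▸ mem_zpowers ζ)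
  have hk : Kr z φ (centralizer {ζ}) := fun g hg c e =>
    h.kr g c e ζ hζ n1 n2 (mem_centralizer_singleton.1 hg)
  have le : ∀ x ∈ ZZ z, x ∈ centralizer {ζ} := fun x hx => S0.le_cen hζ (h.s0.le hx)
  have fm : ∀ x ∈ ZZ z, ∀ x' ∈ ZZ z, F (x * x') = F x * F x' := fun x hx x' hx' =>
    k.mul _ (le x hx) _ (le x' hx')
  have s0 := k.s0' h.ax h.ph hk
  have f1 : F y = 1 ∨ F y = zb := by
    have := (k.ker ζ (le ζ hζ)).2 (mem_zpowers ζ)
    refine e.imp (fun e : ζ = y => e ▸ this) fun e => ?_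
    rw [e, fm z (z_mem_ZZ z) y (h.le hy), k.fz] at this
    exact mul_left_cancel (this.trans s0.zz.symm)
  obtain ⟨ψ, p1, p2, -⟩ := k.exists_ph h.ax h.ph hk
  have c := k.card h.ax h.ph hk
  rw [card_zpowers_of_sq n1 ζζ, inf_eq_left.2 (S0.le_cen hζ), h.cJ] at c
  have mZ := fun x hx => (k.memZ h.ax h.ph hk (le x hx)).2 hx
  refine ⟨ψ, ⟨s0, fun γ => ⟨fun hγ => ?_, ?_⟩, fun e' => ?_, fun e' => ?_⟩, by omega, h.ax, p1, p2⟩
  · obtain ⟨x, -, hx, rfl⟩ := k.liftZ h.ax h.ph hk hγ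
    have r : ∀ x ∈ W, F x = 1 ∨ F x = zb ∨ F x = F u ∨ F x = zb * F u := fun x hx => by
      rcases h.four hy hu y1 u1 n.symm hx with rfl | rfl | rfl | rfl
      · exact Or.inl k.one
      · exact f1.imp_right Or.inl
      · exact Or.inr (Or.inr (Or.inl rfl))
      · rw [fm _ (h.le hy) _ (h.le hu)]
        rcases f1 with e | e <;> simp [e]
    refine (h.mem x hx).elim (r x) fun m => ?_
    rw [← h.zzw x, fm _ (z_mem_ZZ z) _ (h.le m), k.fz]
    rcases r _ m with e | e | e | e <;> simp [e, s0.zz, ← mul_assoc]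
  · rintro (rfl | rfl | rfl | rfl)
    exacts [one_mem _, z_mem_ZZ _, mZ u (h.le hu), mul_mem (z_mem_ZZ _) (mZ u (h.le hu))]
  · rcases (mem_zpowers_iff_of_sq ζζ).1 ((k.ker u (le u (h.le hu))).1 e') with r | rfl
    exacts [u1 r, e.elim n fun e => h.zn hy (e ▸ hu)]
  · rw [← k.fz, eq_comm, k.eq_iff k.zS (le u (h.le hu)), inv_eq_of_mul_eq_one_right (h.el hu),
      mem_zpowers_iff_of_sq ζζ] at e'
    rcases e' with r | rfl
    exacts [h.zn hu (r ▸ one_mem _), e.elim (fun e => h.zn hu (e ▸ hy)) fun e => n (mul_left_cancel e)]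

theorem iso_d (nF : ¬ Cfsg.Spor.IsoFi23 G) (hy : y ∈ W) (y1 : y ≠ 1) : Iso z (z * y) := by
  by_contra n
  obtain ⟨s, c1, c2, c3⟩ := not_iso n
  have := normal_zp (z * y)
  obtain ⟨F, zb, k⟩ := h.s0.sec0 (h.zmem hy) fun e => y1 (mul_eq_left.1 e)
  obtain ⟨u, hu, u1, n1⟩ := h.other y
  obtain ⟨ψ, hy'⟩ := h.hy hy y1 hu u1 n1 (Or.inr rfl) k
  obtain ⟨t, t1, t2, t3⟩ := h.sw y hy y1
  have dd := h.s0.el _ (h.zmem hy)
  have mt := mem_centralizer_singleton.2 (t1.mul_left t2)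
  have mu := S0.le_cen (h.zmem hy) (h.s0.le (h.le hu))
  have e : TT.cj t u * u⁻¹ = y := mul_inv_eq_iff_eq_mul.2 (h.cj_of_not hy y1 hu u1 n1 t1 t2 t3)
  obtain ⟨i⟩ := hy'.swapped ((k.comm_iff mt).2 t1) (fun m => by
    have := (k.comm_iff' mt mu).1 (mem_CZ.1 m _ hy'.w_mem).symm
    rw [e, mem_zpowers_iff_of_sq dd] at this
    exact this.elim y1 fun e => h.s0.ne (mul_eq_right.1 e.symm))
    (k.nb (mem_centralizer_singleton.2 c1) c2 c3)
  have := MFi22.simple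
  have := i.isSimpleGroup
  refine nF (S1714.result _ (orderOf_eq_two_iff'.2 ⟨fun e' : z * y = 1 => h.zn hy (e'.symm ▸ one_mem W), dd⟩)
    (quasi_cen (IsQuasisimple.of_isSimpleGroup hy'.s0.noncomm) (mul_mem
      (h.s0.z_mem_comm (S0.le_cen (h.zmem hy))) (by
        have := commutator_mem_commutator mt mu
        rwa [commutatorElement_def, ← cj_def, e] at this))) ⟨i⟩
    ⟨c, S0.le_cen (h.zmem hy) (h.s0.le (ZZ_norm h.cz (h.zmem hy))), fun e => h.cf y hy y1 ?_⟩)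
  rw [← cj_def, cj_mul, cj_of_commute h.cz.symm, mul_right_inj] at e
  exact (cj_eq_self_iff.1 e).symm

theorem iso_y (hd : ∀ y ∈ W, y ≠ 1 → Iso z (z * y)) (hy : y ∈ W) (y1 : y ≠ 1) : Iso z y ∨ NW W y := by
  refine or_iff_not_imp_left.2 fun n => ?_
  obtain ⟨s, c1, c2, c3⟩ := not_iso n
  have := normal_zp y
  obtain ⟨F, zb, k⟩ := h.s0.sec0 (h.le hy) fun e => h.zW (e ▸ hy)
  obtain ⟨u, hu, u1, n1⟩ := h.other y
  obtain ⟨ψ, hy'⟩ := h.hy hy y1 hu u1 n1 (Or.inl rfl) k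
  have mu := S0.le_cen (h.le hy) (h.s0.le (h.le hu))
  have r : ∀ g, Commute y g → ∀ x ∈ centralizer {y}, F x ∈ center _ → TT.cj g x = x ∨ TT.cj g x = y * x :=
    fun g hg x hx m => ((mem_zpowers_iff_of_sq (h.el hy)).1 ((k.comm_iff' (mem_centralizer_singleton.2 hg)
      hx).1 (mem_center_iff.1 m _))).imp mul_inv_eq_one.1 mul_inv_eq_iff_eq_mul.1
  rcases hy'.fixed (fun γ hγ => by
    obtain ⟨g, h1, h2, rfl⟩ := k.lift hγ
    refine hy'.cen hγ ((k.comm_iff' h1 mu).2 ?_).symm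
    rcases h.swap hy y1 hu u1 n1 (h.norm g h2 u hu) (mem_centralizer_singleton.1 h1) with e | e <;> rw [e]
    exacts [by rw [mul_inv_cancel]; exact one_mem _, by rw [mul_inv_cancel_right]; exact mem_zpowers y])
    (k.nb (mem_centralizer_singleton.2 c1) c2 c3) with m | m
  · intro g hg v hv
    have m' : TT.cj g u ∈ W := (r g hg u mu m).elim (·.symm ▸ hu) (·.symm ▸ mul_mem hy hu)
    have e := cj_of_commute hg.symm
    rcases h.four hy hu y1 u1 n1.symm hv with rfl | rfl | rfl | rfl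
    exacts [(cj_one_right g).symm ▸ one_mem _, e.symm ▸ hy, m', by rw [cj_mul, e]; exact mul_mem hy m']
  · rw [← k.fz, ← k.mul _ k.zS _ mu] at m
    obtain ⟨t, t1, t2, t3⟩ := h.sw y hy y1
    refine (c3 ?_).elim
    rcases r s c1 _ (mul_mem k.zS mu) m with e | e
    · exact hd u hu u1 s (cj_eq_self_iff.1 e).symm c2
    · have := hd u hu u1 (t⁻¹ * s) (cj_eq_self_iff.1 (by
        rw [← cj_cj, e, cj_eq_iff, inv_inv, cj_mul, h.cj_of_not hy y1 hu u1 n1 t1 t2 t3,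
          cj_of_commute t1.symm, ← mul_assoc, ← (h.zc hy).eq, mul_assoc])).symm
        (cj_cj t⁻¹ s z ▸ commute_cj_of_commute t1.inv_right c2)
      rwa [← cj_cj, cj_eq_iff, inv_inv, cj_of_commute t1.symm] at this

omit [Finite G] in
theorem secW (f : centralizer (W : Set G) →* Γ) (hf : Function.Surjective f)
    (ker : ∀ g, f g = 1 ↔ (g : G) ∈ W) : ∃ F : G → Γ, ∃ zb, Sec0 z (centralizer W) W F zb :=
  let ⟨F, k, _⟩ := exists_sec0 h.s0 f hf ker (fun _ hx _ hy => h.comm hy hx) h.le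
    (fun _ hy => (h.zc hy).symm) h.zW
    fun g hg => ⟨1, one_mem _, by rw [mul_one]; exact fun y hy => hg y (h.le hy)⟩
  ⟨F, _, k⟩

omit [Finite G] in
theorem krW : Kr z φ (centralizer W) := fun g hg c e =>
  let ⟨u, hu, u1, _⟩ := h.other 1
  h.kr g c e u (h.le hu) u1 (fun e => h.zW (e ▸ hu)) (hg u hu)

theorem nat (k : Sec0 z (centralizer W) W F zb) : ∃ π act, NS z F zb π act := by
  have := k.finite
  have le : CZ z ≤ centralizer W := fun g hg y hy => hg y (h.le hy)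
  have c := k.card h.ax h.ph h.krW
  rw [h.card, inf_eq_left.2 (fun x hx => le (QQ_le_CZ hx)), h.cJ] at c
  have s := k.sec h.ax h.ph h.krW le (fun g hg c => h.cen c hg) (fun ζ hζ _ => h.mem ζ hζ) (by omega)
  obtain ⟨ψ, h1, h2, -⟩ := k.exists_ph h.ax h.ph h.krW
  obtain ⟨π, act, co⟩ := (h1.hu_or_hr h.ax h2 s.big).resolve_right (s.not_hr h.cz h.c3 h.fp h.cc)
  exact ⟨π, act, s, co⟩

theorem aut [W.Normal] (hy : y ∈ W) (y1 : y ≠ 1) (n : ¬ Iso z y) {K : Type*} [Field K] [Fintype K]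
    (hK : Fintype.card K = 4) : Nonempty (G ⧸ W ≃* MulAut (PSU 6 K 2)) := by
  set N := (centralizer (W : Set G)).map (QuotientGroup.mk' W)
  have : N.Normal := Normal.map inferInstance _ (QuotientGroup.mk'_surjective W)
  obtain ⟨F, zb, k⟩ := h.secW ((QuotientGroup.mk' W).subgroupMap _) (MonoidHom.subgroupMap_surjective _ _)
    fun g => Subtype.ext_iff.trans (QuotientGroup.eq_one_iff (g : G))
  obtain ⟨π, act, ns⟩ := h.nat k
  obtain ⟨t, t1, t2, t3⟩ := h.sw y hy y1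
  obtain ⟨u, hu, u1, n1⟩ := h.other y
  have tu := h.cj_of_not hy y1 hu u1 n1 t1 t2 t3
  obtain ⟨s, c1, c2, c3⟩ : ∃ s ∈ centralizer (W : Set G), Commute z (TT.cj s z) ∧ TT.cj s z ≠ z := by
    obtain ⟨s, c1, c2, c3⟩ := not_iso n
    rcases h.swap hy y1 hu u1 n1 (cj_mem_of_normal s hu) c1 with e | e
    · exact ⟨s, h.cen' hy y1 hu u1 n1 c1 (cj_eq_self_iff.1 e).symm, c2, c3⟩
    · exact ⟨s * t, h.cen' hy y1 hu u1 n1 (c1.mul_right t2) (cj_eq_self_iff.1 (by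
        rw [← cj_cj, tu, cj_mul, e, cj_of_commute c1.symm, ← mul_assoc, h.el hy, one_mul])).symm,
        by rwa [← cj_cj, cj_of_commute t1.symm], by rwa [← cj_cj, cj_of_commute t1.symm]⟩
  have u6 := HU.u6 ⟨_, _, ns.co⟩ (k.nb c1 c2 c3)
  obtain ⟨ψ, p1, p2, p3⟩ := k.exists_ph h.ax h.ph h.krW
  have top := p1.eq_top h.ax p2 ns.big u6 fun γ hγ => by
    obtain ⟨g, h1, h2, rfl⟩ := k.lift hγ
    rw [p3 g h1 h2]
    exact h.X g (h.cen h2 h1)
  have iso : N ≃* PSU 6 K 2 := (topEquiv.symm.trans (MulEquiv.subgroupCongr top.symm)).trans (u6.iso' hK).some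
  have inj : Function.Injective (MulAut.conjNormal : G ⧸ W →* MulAut N) :=
    (injective_iff_map_eq_one _).2 fun q e => by
      obtain ⟨g, rfl⟩ := QuotientGroup.mk_surjective q
      have r : ∀ x ∈ centralizer (W : Set G), TT.cj g x * x⁻¹ ∈ W := fun x hx =>
        (QuotientGroup.eq_one_iff _).1 (mul_inv_eq_one.2
          (congrArg Subtype.val (MulEquiv.congr_fun e ⟨x, x, hx, rfl⟩)))
      have zg : TT.cj g z = z := h.s0.ncj (LX.isConj_cj g z)
        ((mul_mem_cancel_right (inv_mem (z_mem_ZZ z))).1 (h.le (r z k.zS)))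
      have jW : ∀ x ∈ QQ z, x ∈ centralizer (W : Set G) := fun x hx v hv => (h.le hv x hx).symm
      have gJ := h.s0.triv g (cj_eq_self_iff.1 zg).symm fun x hx => h.le (r x (jW x hx))
      have gZ : g ∈ ZZ z := fun q hq => (cj_eq_self_iff.1 ((h.s0.comm g gJ q hq).resolve_right fun e =>
        h.zW (by simpa only [e, mul_inv_cancel_right] using r q (jW q hq)))).symm
      refine (QuotientGroup.eq_one_iff g).2 ((h.mem g gZ).resolve_right fun m => c3 (h.s0.ncj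
        (LX.isConj_cj s z) ((mul_mem_cancel_right (inv_mem (z_mem_ZZ z))).1 (h.le ?_))))
      have := inv_mem (r s c1)
      rwa [cj_mul_inv, inv_inv, ← h.zzw g, cj_mul s z, cj_of_commute (Commute.symm (c1 _ m)), mul_inv_rev z,
        ← mul_assoc, mul_inv_cancel_right] at this
  have o : ∀ x (p : ℕ) [Fact p.Prime], x ^ p ∈ centralizer (W : Set G) → x ∉ centralizer (W : Set G) →
      p ∣ (centralizer (W : Set G)).index := fun x p _ h1 h2 =>
    orderOf_eq_prime (x := (x : G ⧸ centralizer (W : Set G))) ((QuotientGroup.eq_one_iff _).2 h1)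
      (mt (QuotientGroup.eq_one_iff _).1 h2) ▸ orderOf_dvd_natCard _
  have := Fact.mk Nat.prime_three
  have d := Nat.Coprime.mul_dvd_of_dvd_of_dvd (by decide : Nat.Coprime 2 3)
    (o t 2 (h.cen' hy y1 hu u1 n1 (t2.pow_right 2) (cj_eq_self_iff.1 (by
      rw [sq, ← cj_cj, tu, cj_mul, tu, cj_of_commute t2.symm, ← mul_assoc, h.el hy, one_mul])).symm)
      fun m => t3 (h.cen t1 m))
    (o c 3 (by rw [pow_succ, sq, h.c3]; exact one_mem _) fun m => h.cf y hy y1 (m y hy))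
  have e1 := N.card_mul_index
  rw [index_map_eq _ (QuotientGroup.mk'_surjective W) (by rw [QuotientGroup.ker_mk']; exact k.KS),
    Nat.card_congr iso.toEquiv] at e1
  refine ⟨(MulEquiv.ofBijective _ (inj.bijective_of_nat_card_le ?_)).trans (MulAut.congr iso)⟩
  rw [Nat.card_congr (MulAut.congr iso).toEquiv, S0815.result 2 1 le_rfl (q := 2) rfl hK 6 (by decide)
    (by decide), ← e1, mul_comm]
  exact Nat.mul_le_mul_left _ (Nat.le_of_dvd (Nat.pos_of_ne_zero index_ne_zero_of_finite) d)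

theorem main {K : Type*} [Field K] [Fintype K] (hK : Fintype.card K = 4) :
    centralizer ({z} : Set G) ⊔ oddCore G = ⊤ ∨ Cfsg.Spor.IsoFi23 G ∨
      ∃ (W : Subgroup G) (_ : W.Normal), Nat.card W = 4 ∧ (∀ w ∈ W, w ^ 2 = 1) ∧
        Nonempty (G ⧸ W ≃* MulAut (PSU 6 K 2)) := by
  by_cases nF : Cfsg.Spor.IsoFi23 G
  · exact Or.inr (Or.inl nF)
  have hd := fun y => h.iso_d (y := y) nF
  have zi : ZI z W := ⟨h.toZ8, hd, fun _ => h.iso_y hd⟩
  have : (W.subgroupOf (centralizer W)).Normal := ⟨fun n hn g => by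
    rwa [show g * n * g⁻¹ = n from Subtype.ext (cj_of_commute (Commute.symm (g.2 n hn)))]⟩
  obtain ⟨F, zb, k⟩ := h.secW _ (QuotientGroup.mk'_surjective (W.subgroupOf _))
    fun g => QuotientGroup.eq_one_iff g
  obtain ⟨π, act, ns⟩ := h.nat k
  by_cases i : ∀ y ∈ W, y ≠ 1 → Iso z y
  · exact Or.inl (h.s0.sup_eq_top fun _ => zi.gamma ns i)
  push Not at i
  obtain ⟨y, hy, y1, n⟩ := i
  have := zi.normal ns fun u hu u1 => (zi.y u hu u1).resolve_left fun i => by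
    obtain ⟨g, h1, rfl⟩ := h.tr u hu u1 y hy y1
    exact n (cj_of_commute h1.symm ▸ i.cj g)
  exact Or.inr (Or.inr ⟨W, this, h.card, fun w hw => (pow_two w).trans (h.el hw), h.aut hy y1 n hK⟩)

end H8

end Cfsg.Agent.F22X
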